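import Cfsg.Agent.Lib.Rel.Bridge
import Cfsg.Agent.Lib.Clifford.Det
import Cfsg.Agent.Lib.PGroup.Frattini

/-!
# Real characters of odd degree of solvable groups
-/

set_option autoImplicit false
set_option linter.unusedSectionVars false

namespace Cfsg.Lib.Rel

open Cfsg.Lib.PF Cfsg.Lib.Char Cfsg.Lib.Coprime Cfsg.Lib.Transfer Subgroup
open scoped ComplexConjugate commutatorElement

universe u

variable {X : Type u} [Group X] [Finite X]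
variable {G K C U V T N L Q D S A H W : Subgroup X} {θ θ' χ ψ φ ξ η ν μ : X → ℂ}

theorem eq_cf1_of_star_eq (hK : K ≤ normalizer (L : Set X)) (hodd : ¬ 2 ∣ L.relIndex K)
    (hθ : θ ∈ Irr K) (hL : L ≤ cfker θ) (h : star θ = θ) : θ = cf1 K := by
  obtain ⟨Q, _, _, q, hq⟩ := exists_quot L
  obtain ⟨φ, h1, h2⟩ := exists_pull q (pull_mem_Irr (normalizer (L : Set X)).subtype
    (by rwa [range_subtype]) hθ) fun g hg y => hL ((hq g).1 hg) y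
  have h3 : ∀ x, x ∉ q.range → φ x = 0 := fun x hx =>
    (Irr.mem_CF h1).1 x fun e => hx (map_le_range _ _ e)
  have h4 := Irr.eq_cf1_of_star_eq (by
    rwa [comap_subtype, card_map_quot hq hK, ← Nat.not_even_iff_odd, even_iff_two_dvd]) h1
    (eq_of_pull_eq q (fun x hx => by simp [h3 x hx]) h3 (by
      rw [h2, ← h]; exact congrArg star h2))
  refine (eq_cf1_iff (Irr.mem_CF hθ)).2 fun x hx => ?_
  rw [show θ x = φ (q ⟨x, hK hx⟩) from (congrFun h2 ⟨x, hK hx⟩).symm, h4,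
    cf1_of_mem (mem_map_of_mem q hx)]

theorem mem_of_sq_mem_of_relIndex (hTU : T ≤ U) {g : X} (hg : g ∈ U)
    (hn : g ∈ normalizer (T : Set X)) (h : ¬ 2 ∣ T.relIndex U) (h2 : g ^ 2 ∈ T) : g ∈ T := by
  have h5 := zpowers_le.2 hn
  have h6 : T.relIndex (zpowers g) ∣ T.relIndex U :=
    (relIndex_dvd_of_le_normalizer le_sup_right le_sup_left (sup_le le_normalizer h5)).trans
      (Dvd.intro _ (relIndex_mul_relIndex _ _ U le_sup_left (sup_le hTU (zpowers_le.2 hg))))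
  obtain ⟨k, hk⟩ := Nat.not_even_iff_odd.1 fun e => h (e.two_dvd.trans h6)
  have := normal_subgroupOf_of_le_normalizer h5
  have h7 : g ^ T.relIndex (zpowers g) ∈ T :=
    (T.subgroupOf (zpowers g)).pow_index_mem ⟨g, mem_zpowers g⟩
  rwa [hk, pow_succ, pow_mul, mul_mem_cancel_left (pow_mem h2 k)] at h7

theorem star_eq_of_under (hKU : K ≤ U) (hn : U ≤ normalizer (K : Set X)) (hθ : θ ∈ Irr K)
    (hχ : χ ∈ IrrP 2 U K θ) (h : star χ = χ) : star θ = θ := by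
  obtain ⟨h1, h2⟩ := mem_IrrP.1 hχ
  obtain ⟨g, h3, h4⟩ := mem_cfclass.1 (Irr.mem_cfclass_of_over hKU hn (mem_IrrO.1 h1).1 hθ
    (Irr.star_mem hθ) (mem_IrrO.1 h1).2 (by
      rw [cfdot_star_right, h]; simpa using (mem_IrrO.1 h1).2))
  have h5 : g ∈ normalizer ((inertia θ : Subgroup X) : Set X) := fun x => by
    change x ∈ inertia θ ↔ g * x * g⁻¹ ∈ inertia θ
    rw [← mem_inertia_cfConj, h4, inertia_star]
  have h6 : g ^ 2 ∈ inertia θ := by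
    rw [mem_inertia, sq, cfConj_mul, h4, cfConj_star, h4, star_star]
  rw [← h4, (mem_of_sq_mem_of_relIndex (T := U ⊓ inertia θ) inf_le_left h3
    (le_normalizer_inf ((zpowers_le.2 h3).trans le_normalizer) (zpowers_le.2 h5) (mem_zpowers g))
    (fun e => h2 (e.trans (by
      rw [inf_relIndex_left]; exact relIndex_inertia_dvd_deg hKU hn hθ h1)))
    ⟨pow_mem h3 2, h6⟩).2]

open Classical in
/-- The real irreducible characters of `U` of odd degree lying over `ν`. -/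
noncomputable def IrrR (U L : Subgroup X) (ν : X → ℂ) : Finset (X → ℂ) :=
  (IrrP 2 U L ν).filter fun χ => star χ = χ

theorem mem_IrrR : χ ∈ IrrR U L ν ↔ χ ∈ IrrP 2 U L ν ∧ star χ = χ := by
  classical exact Finset.mem_filter

theorem mem_IrrO_cf1 (hLU : L ≤ U) (hn : U ≤ normalizer (L : Set X)) :
    χ ∈ IrrO U L (cf1 L) ↔ χ ∈ Irr U ∧ L ≤ cfker χ :=
  mem_IrrO.trans (and_congr_right fun h => ⟨fun e => not_not.1 fun h' =>
    e (Irr.cfdot_cf1_normal_eq_zero h hLU hn h'), fun e => by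
      rw [cfdot_cf1_of_le_cfker e]; exact Irr.apply_one_ne_zero h⟩)

theorem mem_IrrR_cf1 (hLU : L ≤ U) (hn : U ≤ normalizer (L : Set X)) :
    χ ∈ IrrR U L (cf1 L) ↔ χ ∈ Irr U ∧ L ≤ cfker χ ∧ ¬ 2 ∣ deg χ ∧ star χ = χ := by
  rw [mem_IrrR, mem_IrrP, mem_IrrO_cf1 hLU hn, and_assoc, and_assoc]

theorem IrrR_eq_of_odd (hLK : L ≤ K) (hKU : K ≤ U) (hK : U ≤ normalizer (K : Set X))
    (hL : U ≤ normalizer (L : Set X)) (hodd : ¬ 2 ∣ L.relIndex K) :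
    IrrR U L (cf1 L) = IrrR U K (cf1 K) := by
  ext χ
  rw [mem_IrrR_cf1 (hLK.trans hKU) hL, mem_IrrR_cf1 hKU hK]
  refine and_congr_right fun h1 => ⟨fun ⟨h2, h3, h4⟩ => ⟨?_, h3, h4⟩, fun h => ⟨hLK.trans h.1, h.2⟩⟩
  obtain ⟨θ, h5, h6⟩ := Irr.exists_res_constituent hKU h1
  rw [eq_cf1_of_star_eq (hKU.trans hL) hodd h5 ((Irr.isChar h1).le_cfker_of_res hKU hLK h2 h5 h6)
    (star_eq_of_under hKU hK h5 (mem_IrrP.2 ⟨mem_IrrO.2 ⟨h1, h6⟩, h3⟩) h4)] at h6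
  exact ((mem_IrrO_cf1 hKU hK).1 (mem_IrrO.2 ⟨h1, h6⟩)).2

theorem card_IrrR_res (hKU : K ≤ U) (hK : U ≤ normalizer (K : Set X)) (hH : H ≤ U)
    (hm : ∀ u ∈ U, ∃ k ∈ K, ∃ h ∈ H, u = k * h) :
    (IrrR U K (cf1 K)).card = (IrrR H (K ⊓ H) (cf1 (K ⊓ H))).card := by
  have hn := le_normalizer_inf (hH.trans hK) (le_normalizer (H := H))
  have h1 : ∀ χ ∈ Irr U, K ≤ cfker χ → res H χ ∈ Irr H := fun χ h1 h2 =>
    ((Irr.isChar h1).res hH).mem_Irr_of_cfdot (by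
      rw [cfdot_res_left, cfdot_res_right, ← Irr.cfdot_self h1]
      exact (av_eq_of_mul hH hm fun k hk x _ => by rw [h2 hk]).symm)
  have h2 : ∀ χ ∈ Irr U, K ≤ cfker χ → ∀ ψ ∈ Irr U, K ≤ cfker ψ → res H χ = res H ψ → χ = ψ :=
    fun χ h2 h3 ψ h4 h5 e => CF.ext (Irr.mem_CF h2) (Irr.mem_CF h4) fun u hu => by
      obtain ⟨k, h6, h, h7, rfl⟩ := hm u hu
      rw [h3 h6, h5 h6, ← res_of_mem χ h7, e, res_of_mem _ h7]
  refine Finset.card_nbij (res H) (fun χ hχ => ?_) (fun χ hχ ψ hψ => ?_) fun ψ hψ => ?_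
  · obtain ⟨h3, h4, h5, h6⟩ := (mem_IrrR_cf1 hKU hK).1 hχ
    exact (mem_IrrR_cf1 inf_le_right hn).2 ⟨h1 χ h3 h4, le_cfker_res inf_le_right
      (inf_le_left.trans h4), by rwa [deg_res], by rw [← res_star, h6]⟩
  · obtain ⟨h3, h4, -⟩ := (mem_IrrR_cf1 hKU hK).1 hχ
    obtain ⟨h5, h6, -⟩ := (mem_IrrR_cf1 hKU hK).1 hψ
    exact h2 χ h3 h4 ψ h5 h6
  obtain ⟨h3, h4, h5, h6⟩ := (mem_IrrR_cf1 inf_le_right hn).1 hψ
  obtain ⟨χ, h7, h8, h9⟩ := exists_Irr_between hKU le_rfl (ind_mem_CF H U ψ) (θ := cf1 K) (by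
    rw [← cfdot_res_left, res_ind_of_mul hH hKU (fun u hu => by
      obtain ⟨k, h6, h, h7, rfl⟩ := hm u hu
      exact ⟨h, h7, h⁻¹ * k * h⁻¹⁻¹, (hK (hH (inv_mem h7)) k).1 h6, by group⟩) (Irr.mem_CF h3),
      cfdot_ind_left inf_le_right _ (cf1_mem_CF K), ← cfdot_res_right, res_cf1 inf_le_right,
      inf_comm, cfdot_cf1_of_le_cfker h4]
    exact Irr.apply_one_ne_zero h3)
  have h10 := ((mem_IrrO_cf1 hKU hK).1 (mem_IrrO.2 ⟨h7, h9⟩)).2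
  rw [cfdot_ind_left hH _ (Irr.mem_CF h7), ← cfdot_res_right] at h8
  obtain rfl := Irr.eq_of_cfdot_ne_zero h3 (h1 χ h7 h10) h8
  exact ⟨χ, (mem_IrrR_cf1 hKU hK).2 ⟨h7, h10, by rwa [deg_res] at h5, h2 _ (Irr.star_mem h7)
    (by rwa [cfker_star]) _ h7 h10 (by rw [res_star, h6])⟩, rfl⟩

theorem card_IrrR_eq_of_rel {U' : Subgroup X} (hS : IsPGroup 2 S) (hν : ν ∈ Irr L)
    (h : Side 2 U K L S N ν) (h' : Side 2 U' K L S N ν)
    (h5 : ∀ θ ∈ InvO K L ν S, (IrrR U K θ).card = (IrrR U' K θ).card) :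
    (IrrR U L ν).card = (IrrR U' L ν).card := by
  classical
  have k1 : ∀ {U : Subgroup X}, Side 2 U K L S N ν → ∀ χ ∈ IrrR U L ν,
      ∃ θ ∈ InvO K L ν S, cfdot K χ θ ≠ 0 := fun h χ hχ => by
    obtain ⟨h6, h7⟩ := mem_IrrP.1 (mem_IrrR.1 hχ).1
    obtain ⟨θ, h8, h9⟩ := exists_inv_under h.le' h.nK hS h.sle (mem_IrrO.1 h6).1 h7
    exact ⟨θ, ⟨mem_IrrO.2 ⟨h8.1, over_of_cfdot_ne_zero (h.le.trans h.le') h.nL h.inv hν h6 h.le
      h.le' h8.1 h9⟩, h8.2⟩, h9⟩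
  have k2 : ∀ {U : Subgroup X}, Side 2 U K L S N ν → ∀ χ ∈ IrrR U L ν,
      ∀ θ ∈ InvO K L ν S, cfdot K χ θ ≠ 0 → ∀ θ' ∈ InvO K L ν S,
      cfdot K χ θ' ≠ 0 ↔ θ' ∈ cfclass N θ := fun h χ hχ θ h6 h7 θ' h8 => h.nml ▸
    over_iff_mem_cfclass h.le' h.nK hS h.sle h.syl ⟨(mem_IrrO.1 h6.1).1, h6.2⟩
      ⟨(mem_IrrO.1 h8.1).1, h8.2⟩
      (mem_IrrO.2 ⟨(mem_IrrO.1 (mem_IrrP.1 (mem_IrrR.1 hχ).1).1).1, h7⟩)
  have k3 : ∀ {U : Subgroup X}, Side 2 U K L S N ν → ∀ θ ∈ InvO K L ν S,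
      (IrrR U L ν).filter (fun χ => cfdot K χ θ ≠ 0) = IrrR U K θ := fun h θ h6 => by
    ext χ
    simp only [Finset.mem_filter, mem_IrrR, mem_IrrP, mem_IrrO]
    exact ⟨fun h => ⟨⟨⟨h.1.1.1.1, h.2⟩, h.1.1.2⟩, h.1.2⟩, fun h7 => ⟨⟨⟨⟨h7.1.1.1,
      (Irr.isChar h7.1.1.1).cfdot_ne_zero_trans h.le h.le' (mem_IrrO.1 h6.1).1 (Irr.isChar hν)
        h7.1.1.2 (mem_IrrO.1 h6.1).2⟩, h7.1.2⟩, h7.2⟩, h7.1.1.2⟩⟩
  exact card_eq_of_rel (I := InvO K L ν S) (fun i j => j ∈ cfclass N i)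
    (fun χ i => cfdot K χ i ≠ 0) (fun χ i => cfdot K χ i ≠ 0) (k1 h) (k1 h') (k2 h) (k2 h')
    (fun i => self_mem_cfclass _ _) fun i hi => by rw [k3 h _ hi, k3 h' _ hi, h5 i hi]

theorem card_IrrR_inertia (hLU : L ≤ U) (hn : U ≤ normalizer (L : Set X)) (hν : ν ∈ Irr L)
    (h : ¬ 2 ∣ (inertia ν).relIndex U) (hr : star ν = ν) :
    (IrrR U L ν).card = (IrrR (U ⊓ inertia ν) L ν).card := by
  have h1 := bijOn_ind_InvO (S := ⊥) hLU hn bot_le bot_le ⟨hν, bot_le⟩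
  have h2 : ∀ ψ ∈ IrrO (U ⊓ inertia ν) L ν, 2 ∣ deg (ind (U ⊓ inertia ν) U ψ) ↔ 2 ∣ deg ψ :=
    fun ψ hψ => by
      rw [(Irr.isChar (mem_IrrO.1 hψ).1).deg_ind inf_le_left, inf_relIndex_left,
        Nat.prime_two.dvd_mul, or_iff_right h]
  refine (Finset.card_nbij (ind (U ⊓ inertia ν) U) (fun ψ hψ => ?_) (fun ψ hψ φ hφ e =>
    h1.injOn ⟨(mem_IrrP.1 (mem_IrrR.1 hψ).1).1, bot_le⟩ ⟨(mem_IrrP.1 (mem_IrrR.1 hφ).1).1, bot_le⟩
      e) fun χ hχ => ?_).symm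
  · obtain ⟨h3, h4⟩ := mem_IrrP.1 (mem_IrrR.1 hψ).1
    exact mem_IrrR.2 ⟨mem_IrrP.2 ⟨(h1.mapsTo ⟨h3, bot_le⟩).1, (h2 ψ h3).not.2 h4⟩,
      by rw [← ind_star, (mem_IrrR.1 hψ).2]⟩
  · obtain ⟨h4, h5⟩ := mem_IrrP.1 (mem_IrrR.1 hχ).1
    obtain ⟨ψ, h3, rfl⟩ := h1.surjOn ⟨h4, bot_le⟩
    refine ⟨ψ, mem_IrrR.2 ⟨mem_IrrP.2 ⟨h3.1, (h2 ψ h3.1).not.1 h5⟩, h1.injOn ⟨mem_IrrO.2
      ⟨Irr.star_mem (mem_IrrO.1 h3.1).1, ?_⟩, bot_le⟩ h3 (by rw [ind_star, (mem_IrrR.1 hχ).2])⟩, rfl⟩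
    rw [cfdot_star_left, hr]
    simpa using (mem_IrrO.1 h3.1).2

theorem mul_self_of_real (hμ : IsChar T μ) (h1 : μ 1 = 1) (hr : star μ = μ) {x : X} (hx : x ∈ T) :
    μ x * μ x = 1 := by
  rw [← hμ.mul_conj_of_apply_one h1 hx]
  exact congrArg _ (congrFun hr x).symm

theorem exists_real_linear (hKT : K ≤ T) (hψ : IsChar T ψ) (hr : star ψ = ψ) (hθ : IsChar K θ)
    (h1 : θ 1 = 1) (hr' : star θ = θ) {m : ℕ} (hm : ¬ 2 ∣ m) (h : res K ψ = (m : ℂ) • θ) :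
    ∃ μ, IsChar T μ ∧ μ 1 = 1 ∧ star μ = μ ∧ res K μ = θ := by
  refine ⟨extendByZero T (detChar fun t : T => ψ t),
    isChar_extendByZero.2 (Clifford.isCharacter_detChar _), ?_, ?_, ?_⟩
  · exact (Induce.extendByZero_coe T _ 1).trans (Clifford.detChar_apply_one _)
  · refine eq_of_coe_eq (H := T) (fun x hx => by simp [Induce.extendByZero_of_not_mem T _ hx])
      (fun x hx => Induce.extendByZero_of_not_mem T _ hx) (funext fun t => ?_)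
    rw [Pi.star_apply, Induce.extendByZero_coe]
    refine (congrFun (Clifford.detChar_conj hψ.2) t).symm.trans ?_
    exact congrFun (congrArg detChar (funext fun t : T => congrFun hr t)) t
  refine CF.ext (res_mem_CF hKT (isChar_extendByZero.2 (Clifford.isCharacter_detChar _)).mem_CF)
    hθ.mem_CF fun k hk => ?_
  have h2 := congrFun (Clifford.detChar_comp hψ.2 (inclusion hKT)) ⟨k, hk⟩
  rw [show (fun x : K => ψ (inclusion hKT x)) = (m : ℂ) • fun x : K => θ x from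
    funext fun x => (res_coe K ψ x).symm.trans (congrFun h x),
    Clifford.detChar_natCast_smul hθ.2, Clifford.detChar_of_apply_one hθ.2 h1] at h2
  obtain ⟨j, rfl⟩ := Nat.not_even_iff_odd.1 fun e => hm e.two_dvd
  rw [res_of_mem _ hk]
  refine (Induce.extendByZero_coe T _ ⟨k, hKT hk⟩).trans (h2.symm.trans ?_)
  rw [Pi.pow_apply, pow_succ, pow_mul, sq, mul_self_of_real hθ h1 hr' hk, one_pow, one_mul]

theorem card_IrrR_mul (hKU : K ≤ U) (hUT : U ≤ T) (hμ : IsChar T μ) (h1 : μ 1 = 1)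
    (hr : star μ = μ) : (IrrR U K (res K μ)).card = (IrrR U K (cf1 K)).card := by
  have h2 : ∀ χ ∈ CF U, res U μ * (res U μ * χ) = χ := fun χ h => funext fun x => by
    by_cases hx : x ∈ U
    · rw [Pi.mul_apply, Pi.mul_apply, res_of_mem _ hx, ← mul_assoc,
        mul_self_of_real hμ h1 hr (hUT hx), one_mul]
    · simp [h.1 x hx]
  have h3 : ∀ θ θ' : X → ℂ, (∀ k ∈ K, θ' k = θ k * μ k) → ∀ χ ∈ IrrR U K θ',
      res U μ * χ ∈ IrrR U K θ := fun θ θ' h χ hχ => by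
    obtain ⟨h4, h5⟩ := mem_IrrP.1 (mem_IrrR.1 hχ).1
    refine mem_IrrR.2 ⟨mem_IrrP.2 ⟨mem_IrrO.2 ⟨Irr.mul_mem_of_apply_one (mem_IrrO.1 h4).1
      (hμ.res hUT) (by simpa using h1), ?_⟩, ?_⟩, ?_⟩
    · rw [mul_comm, cfdot_mul_left, cfdot_congr (fun _ _ => rfl) (ψ' := θ') fun k hk => by
        rw [← res_star, hr, Pi.mul_apply, res_of_mem _ (hKU hk), h k hk]]
      exact (mem_IrrO.1 h4).2
    · rwa [deg, Pi.mul_apply, res_one_apply, h1, one_mul]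
    · rw [star_mul', ← res_star, hr, (mem_IrrR.1 hχ).2]
  have h4 : ∀ θ, ∀ χ ∈ IrrR U K θ, χ ∈ CF U := fun θ χ h =>
    Irr.mem_CF (IrrP_subset _ (mem_IrrR.1 h).1)
  exact Finset.card_nbij' (res U μ * ·) (res U μ * ·)
    (h3 _ _ fun k hk => by rw [res_of_mem _ hk, cf1_of_mem hk, one_mul])
    (h3 _ _ fun k hk => by
      rw [res_of_mem _ hk, cf1_of_mem hk, mul_self_of_real hμ h1 hr (hUT (hKU hk))])
    (fun χ h => h2 χ (h4 _ χ h)) fun χ h => h2 χ (h4 _ χ h)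

theorem exists_real_linear_of_mem (hKU : K ≤ U) (hUT : U ≤ T) (hn : T ≤ normalizer (K : Set X))
    (hθ : θ ∈ Irr K) (h1 : θ 1 = 1) (hr : star θ = θ) (hI : T ≤ inertia θ)
    (hi : ¬ 2 ∣ U.relIndex T) (hχ : χ ∈ IrrR U K θ) :
    ∃ μ, IsChar T μ ∧ μ 1 = 1 ∧ star μ = μ ∧ res K μ = θ := by
  obtain ⟨h2, h3⟩ := mem_IrrP.1 (mem_IrrR.1 hχ).1
  obtain ⟨h4, h5⟩ := mem_IrrO.1 h2
  have h6 := Irr.res_eq_smul_of_le_inertia hKU (hUT.trans hn) h4 hθ h5 (hUT.trans hI)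
  have h7 : cfdot K χ θ = deg χ := by
    rw [← Irr.apply_one h4, ← res_one_apply K χ, h6, Pi.smul_apply, h1, smul_eq_mul, mul_one]
  refine exists_real_linear (hKU.trans hUT) ((Irr.isChar h4).ind hUT)
    (by rw [← ind_star, (mem_IrrR.1 hχ).2]) (Irr.isChar hθ) h1 hr (m := U.relIndex T * deg χ)
    (fun e => (Nat.prime_two.dvd_mul.1 e).elim hi h3)
    (CF.ext (res_mem_CF (hKU.trans hUT) (ind_mem_CF _ _ _))
      (Submodule.smul_mem _ _ (Irr.mem_CF hθ)) fun k hk => ?_)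
  rw [res_of_mem _ hk, ind_of_mem _ (hUT (hKU hk)), sum_fs_congr (g := fun _ => deg χ * θ k)
    fun t ht => by
      have := (hn ht k).1 hk
      rw [res_of_mem _ (hKU this), ← res_of_mem χ this, h6, h7, Pi.smul_apply, smul_eq_mul,
        mem_inertia_iff.1 (hI ht)], Finset.sum_const, card_fs_subgroup,
    nsmul_eq_mul, ← cast_card_mul_relIndex hUT, Pi.smul_apply, smul_eq_mul]
  have := card_ne_zero U
  push_cast
  field_simp

theorem card_IrrR_eq (n : ℕ) : ∀ G L : Subgroup X, L ≤ G → G ≤ normalizer (L : Set X) →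
    IsPGroup 2 S → S ≤ G → ¬ 2 ∣ S.relIndex G → PSolvMod 2 G L → L.relIndex G < n →
    (IrrR G L (cf1 L)).card =
      (IrrR (G ⊓ normalizer ((L ⊔ S : Subgroup X) : Set X)) L (cf1 L)).card := by
  induction n with
  | zero => exact fun _ _ _ _ _ _ _ _ h => absurd h (Nat.not_lt_zero _)
  | succ n ih =>
  intro G L hLG hn hS hSG hi hs hlt
  rcases hLG.eq_or_lt with rfl | h1
  · rw [sup_eq_left.2 hSG, inf_eq_left.2 le_normalizer]
  obtain ⟨K, h2, h3, h4, h5⟩ := hs G L le_rfl h1 le_rfl hn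
  have h6 := (relIndex_lt_of_lt_left h2 h3).trans_le (Nat.lt_succ_iff.1 hlt)
  obtain ⟨N, hN⟩ : ∃ N, N = G ⊓ normalizer ((L ⊔ S : Subgroup X) : Set X) := ⟨_, rfl⟩
  have hNG : N ≤ G := hN ▸ inf_le_left
  have hPN : L ⊔ S ≤ N := hN ▸ le_inf (sup_le hLG hSG) le_normalizer
  have h7 : G ⊓ normalizer (S : Set X) ≤ N :=
    hN ▸ le_inf inf_le_left (le_normalizer_sup (inf_le_left.trans hn) inf_le_right)
  rw [← hN]
  rcases h5 with ⟨k, h5⟩ | h5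
  swap
  · have h8 : N ≤ normalizer ((K ⊔ S : Subgroup X) : Set X) := by
      have := le_normalizer_sup (hNG.trans h4) (hN.le.trans inf_le_right)
      rwa [← sup_assoc, sup_eq_left.2 h2.le] at this
    have h9 : K ⊔ S ≤ G ⊓ normalizer ((K ⊔ S : Subgroup X) : Set X) :=
      le_inf (sup_le h3 hSG) le_normalizer
    rw [IrrR_eq_of_odd h2.le h3 h4 hn h5, ih G K h3 h4 hS hSG hi (hs.mono le_rfl h2.le) h6,
      card_IrrR_res (le_sup_left.trans h9) (inf_le_left.trans h4) (le_inf hNG h8) fun u hu => by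
        obtain ⟨k, h10, n, h11, rfl⟩ := exists_frattini hS (hSG.trans h4) h9
          (not_dvd_relIndex_of_le (le_sup_right.trans h9) inf_le_left hi) inf_le_right hu
        exact ⟨k, h10, n, h7 ⟨h11.1.1, h11.2⟩, rfl⟩,
      IrrR_eq_of_odd (le_inf h2.le (le_sup_left.trans hPN)) inf_le_right
        (le_normalizer_inf (hNG.trans h4) le_normalizer) (hNG.trans hn)
        (not_dvd_relIndex_of_le (le_inf h2.le (le_sup_left.trans hPN)) inf_le_left h5)]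
  obtain ⟨j, hj⟩ := exists_relIndex_sup_eq_pow hS (hSG.trans h4)
  have h8 := sup_eq_of_sylow (h2.le.trans le_sup_left) le_sup_right (k := k + j)
    (by rw [← relIndex_mul_relIndex L K _ h2.le le_sup_left, h5, hj, pow_add])
    (not_dvd_relIndex_of_le le_sup_right (sup_le h3 hSG) hi)
  have hKN : K ≤ N := le_sup_left.trans (h8 ▸ hPN)
  have hSN := le_sup_right.trans hPN
  have hI : G ≤ inertia (cf1 L) := fun g hg => cfConj_cf1 (hn hg)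
  have hi' := not_dvd_relIndex_of_le hSN hNG hi
  refine card_IrrR_eq_of_rel hS (cf1_mem_Irr L) ⟨h2.le, h3, h4, hn, hI, hSG, hi, rfl⟩
    ⟨h2.le, hKN, hNG.trans h4, hNG.trans hn, hNG.trans hI, hSN, hi',
      le_antisymm (inf_le_inf_right _ hNG) (le_inf h7 inf_le_right)⟩ fun θ ⟨h9, h10⟩ => ?_
  have h11 := (mem_IrrO.1 h9).1
  have h12 : K ≤ inertia θ := CF.le_inertia (Irr.mem_CF h11)
  by_cases hr : star θ = θ ∧ ¬ 2 ∣ deg θ
  swap
  · have : ∀ U, K ≤ U → U ≤ G → IrrR U K θ = ∅ := fun U e1 e2 =>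
      Finset.eq_empty_of_forall_notMem fun χ hχ => hr ⟨star_eq_of_under e1 (e2.trans h4) h11
        (mem_IrrR.1 hχ).1 (mem_IrrR.1 hχ).2, fun e => by
          obtain ⟨e3, e4⟩ := mem_IrrP.1 (mem_IrrR.1 hχ).1
          obtain ⟨k, -, e5⟩ := exists_deg_eq_mul e1 (e2.trans h4) h11 e3
          exact e4 (e5 ▸ e.mul_left k)⟩
    rw [this G h3 le_rfl, this N hKN hNG]
  have h13 : θ 1 = 1 := by
    obtain ⟨a, e1, e2⟩ := exists_deg_eq_mul h2.le (h3.trans hn) (cf1_mem_Irr L) h9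
    obtain ⟨i, -, rfl⟩ := (Nat.dvd_prime_pow Nat.prime_two).1 (h5 ▸ e1)
    rw [deg_cf1, mul_one] at e2
    rcases i with _ | i
    · rw [Irr.apply_one h11, e2]; simp
    · exact absurd (e2 ▸ dvd_pow_self 2 i.succ_ne_zero) hr.2
  have h14 : S ≤ G ⊓ inertia θ := le_inf hSG h10
  have h15 := not_dvd_relIndex_of_le h14 inf_le_left hi
  rw [card_IrrR_inertia h3 h4 h11 (fun e => hi (e.trans (relIndex_dvd_of_le_left G h10))) hr.1,
    card_IrrR_inertia hKN (hNG.trans h4) h11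
      (fun e => hi' (e.trans (relIndex_dvd_of_le_left N h10))) hr.1]
  by_cases h16 : ∃ μ, IsChar (G ⊓ inertia θ) μ ∧ μ 1 = 1 ∧ star μ = μ ∧ res K μ = θ
  · obtain ⟨μ, e1, e2, e3, e4⟩ := h16
    have e5 := card_IrrR_mul (le_inf h3 h12) le_rfl e1 e2 e3
    have e6 := card_IrrR_mul (le_inf hKN h12) (inf_le_inf_right _ hNG) e1 e2 e3
    rw [e4] at e5 e6
    rw [e5, e6, ih _ K (le_inf h3 h12) (inf_le_left.trans h4) hS h14 h15
      (hs.mono inf_le_left h2.le) ((Nat.le_of_dvd (relIndex_pos _ _) (Dvd.intro _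
        (relIndex_mul_relIndex K _ G (le_inf h3 h12) inf_le_left))).trans_lt h6), hN, h8,
      inf_right_comm]
  have : ∀ U, K ≤ U → S ≤ U → U ≤ G ⊓ inertia θ → IrrR U K θ = ∅ := fun U e1 e2 e3 =>
    Finset.eq_empty_of_forall_notMem fun χ hχ => h16 (exists_real_linear_of_mem e1 e3
      (inf_le_left.trans h4) h11 h13 hr.1 inf_le_right
      (fun e => h15 (e.trans (relIndex_dvd_of_le_left _ e2))) hχ)
  rw [this _ (le_inf h3 h12) h14 le_rfl, this _ (le_inf hKN h12) (le_inf hSN h10)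
    (inf_le_inf_right _ hNG)]

theorem mem_IrrP_bot {p : ℕ} : χ ∈ IrrP p U ⊥ (cf1 ⊥) ↔ χ ∈ Irr U ∧ ¬ p ∣ deg χ := by
  rw [mem_IrrP, mem_IrrO_cf1 bot_le le_normalizer_of_normal, and_iff_left bot_le]

theorem forall_real_iff (hS : IsPGroup 2 S) (hSN : S ≤ N) (hn : N ≤ normalizer (S : Set X))
    (hi : ¬ 2 ∣ S.relIndex N) : (∀ χ ∈ Irr N, ¬ 2 ∣ deg χ → star χ = χ) ↔
      (∀ x ∈ S, x ^ 2 ∈ ⁅S, S⁆) ∧ N = S := by
  have hSS : ⁅S, S⁆ ≤ S := commutator_le_of_le_normalizer le_normalizer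
  refine ⟨fun h => ?_, fun ⟨h1, h2⟩ χ h3 h4 => ?_⟩
  · obtain rfl : N = S := le_antisymm (fun g _ => not_not.1 fun hg => by
      obtain ⟨χ, h1, h2, h3⟩ := exists_Irr_le_cfker_not_mem hSN hn hg
      rw [eq_cf1_of_star_eq hn hi h1 h2 (h χ h1 fun e => hi (e.trans (Irr.deg_dvd_relIndex h1 h2))),
        cfker_cf1] at h3
      contradiction) hSN
    refine ⟨fun x hx => not_not.1 fun e => ?_, rfl⟩
    obtain ⟨χ, h1, h2, h3⟩ := exists_Irr_le_cfker_not_mem hSS (normalizer_commutator_ge_left _ _) e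
    have h4 := Irr.apply_one_of_commutator_le h1 h2
    refine h3 ((Irr.mem_cfker_iff h1).2 ?_)
    rw [sq, (Irr.isChar h1).map_mul_of_apply_one h4 hx hx, h4, mul_self_of_real (Irr.isChar h1) h4
      (h χ h1 (by rw [Irr.deg_eq_one_of_commutator_le h1 h2]; decide)) hx]
  subst h2
  have h5 : χ 1 = 1 := by
    obtain ⟨k, hk⟩ := IsPGroup.iff_card.1 hS
    obtain ⟨i, -, e⟩ := (Nat.dvd_prime_pow Nat.prime_two).1 (hk ▸ Irr.deg_dvd_card h3)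
    rcases i with _ | i
    · rw [Irr.apply_one h3, e]; simp
    · exact absurd (e ▸ dvd_pow_self 2 i.succ_ne_zero) h4
  refine CF.ext (CF.star_mem (Irr.mem_CF h3)) (Irr.mem_CF h3) fun x hx => ?_
  have h6 := cfker_apply ((Irr.isChar h3).commutator_le_cfker h5 (h1 x hx))
  rw [sq, (Irr.isChar h3).map_mul_of_apply_one h5 hx hx, h5,
    ← (Irr.isChar h3).mul_conj_of_apply_one h5 hx] at h6
  exact (mul_left_cancel₀ (fun e => by
    simpa [e] using (Irr.isChar h3).mul_conj_of_apply_one h5 hx) h6).symm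

theorem forall_real_iff_card : (∀ χ ∈ Irr U, ¬ 2 ∣ deg χ → star χ = χ) ↔
    (IrrR U ⊥ (cf1 ⊥)).card = (IrrP 2 U ⊥ (cf1 ⊥)).card := by
  classical
  rw [IrrR, Finset.card_filter_eq_iff]
  simp only [mem_IrrP_bot, and_imp]

end Cfsg.Lib.Rel
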